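import Cfsg.Agent.BG2.P3a
import Cfsg.Agent.Fgs1.Kazarin
import Cfsg.Agent.Sig.FStar

/-! Isolated `p`-minimal subgroups: the abstract core. -/

set_option autoImplicit false
set_option linter.unusedSectionVars false

namespace CF.IsoP

open Subgroup Cfsg CF.BG CF.BG2 CF.Sig
open scoped commutatorElement

variable {G : Type*} [Group G] [Finite G] {p : ℕ} {S Q R L Y : Subgroup G}

theorem kaz [Y.Normal] {t k : ℕ} (ht : t.Prime) {x : G} (h : (𝐂₁ x).relIndex Y = t ^ k) :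
    Sol ⁅Y, zpowers x⁆ := by
  have hx : zpowers x ≤ 𝐂₁ x := zpowers_le.2 (self_mem_cent1 x)
  have h2 : zpowers x ⊔ Y = (𝐂₁ x ⊓ (zpowers x ⊔ Y)) ⊔ Y :=
    le_antisymm (sup_le_sup_right (le_inf hx le_sup_left) _) (sup_le inf_le_right le_sup_right)
  have h3 := CF.Solv.relIndex_sup_eq_relIndex_of_le_normalizer (H := 𝐂₁ x ⊓ (zpowers x ⊔ Y))
    (N := Y) (by rw [normalizer_eq_top]; exact le_top)
  rw [← h2, inf_relIndex_right, ← inf_relIndex_right _ Y, inf_assoc,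
    inf_eq_right.2 (le_sup_right : Y ≤ zpowers x ⊔ Y), inf_relIndex_right, h] at h3
  have xH : x ∈ zpowers x ⊔ Y := mem_sup_left (mem_zpowers x)
  obtain ⟨M, hM, s, xM⟩ := CF.Fgs1.kazarin ht (zpowers x ⊔ Y :) ⟨x, xH⟩ k
    (by rw [CF.Fgs1.index_centralizer_coe]; exact h3)
  refine (Sol.map s (Subgroup.subtype _)).mono ((commutator_mono le_rfl
    (zpowers_le.2 (mem_map_of_mem (Subgroup.subtype _) xM))).trans (comm_le_right ?_))
  exact le_sup_right.trans (normal_iff_map_subtype.1 hM).norm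

theorem le_fit {X : Subgroup G} (h : X.IsSubnormal) (l : X ≤ generalizedFittingSubgroup G)
    (s : Sol X) : X ≤ 𝐅 (⊤ : Subgroup G) := by
  rw [F_top, eq_sup_of_subnormal_of_le_fstar h l]
  exact sup_le (sSup_le fun K ⟨a, b⟩ => (qs_not_isSolvable a.2 (s.mono b)).elim) inf_le_left

theorem O_eq_bot_of_compl {X : Subgroup G} (h : PiGrp {p}ᶜ X) : 𝐎 {p} X = ⊥ :=
  (O_pi _ _).eq_bot (h.le (O_le _ _))

structure D (p : ℕ) (S Q R L Y : Subgroup G) : Prop where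
  hp : p.Prime
  s : PiGrp {p} S
  qs : Q ≤ S
  sl : S ≤ L
  lq : L ≤ 𝐍 Q
  sr : S ≤ 𝐍 R
  r0 : R ≠ ⊥
  rq : ⁅R, Q⁆ = R
  dich : ∀ X, S ≤ 𝐍 X → X ≤ L ∨ R ≤ X
  ry : R ≤ Y
  yn : Y.Normal
  ymin : ∀ N : Subgroup G, N.Normal → R ≤ N → Y ≤ N
  top : Y ⊔ L = ⊤

omit [Finite G] in
theorem nrm {N : Subgroup G} (n : N.Normal) (A : Subgroup G) : A ≤ 𝐍 N :=
  le_top.trans (normalIn_top.2 n).norm

theorem D.map (h : D p S Q R L Y) {N : Subgroup G} [N.Normal]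
    (r : ¬ R ≤ N) : D p (S.map (QuotientGroup.mk' N)) (Q.map (QuotientGroup.mk' N))
      (R.map (QuotientGroup.mk' N)) (L.map (QuotientGroup.mk' N)) (Y.map (QuotientGroup.mk' N)) := by
  have sj := QuotientGroup.mk'_surjective N
  refine ⟨h.hp, h.s.map _, map_mono h.qs, map_mono h.sl, map_norm h.lq _, map_norm h.sr _,
    fun e => r (by rwa [Subgroup.map_eq_bot_iff, QuotientGroup.ker_mk'] at e),
    by rw [← map_commutator, h.rq], fun X n => ?_, map_mono h.ry, h.yn.map _ sj, fun M n l => ?_,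
    by rw [← Subgroup.map_sup, h.top, map_top_of_surjective _ sj]⟩
  · refine (h.dich (X.comap (QuotientGroup.mk' N)) ?_).imp (fun l => ?_) map_le_iff_le_comap.2
    · exact (map_le_iff_le_comap.1 n).trans (le_normalizer_comap _)
    · rw [← map_comap_eq_self_of_surjective sj X]; exact map_mono l
  · exact map_le_iff_le_comap.2 (h.ymin _ (n.comap _) (map_le_iff_le_comap.1 l))

namespace D
variable (h : D p S Q R L Y) (h0 : 𝐎 {p} (⊤ : Subgroup G) = ⊥)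
include h

theorem dich' {X : Subgroup G} (n : S ≤ 𝐍 X) (o : 𝐎 {p} X = ⊥) : X ≤ 𝐂 Q ∨ R ≤ X :=
  (h.dich X n).imp_left fun l => cent_of_inf_eq_bot (l.trans h.lq) (h.qs.trans n)
    (eq_bot_iff.2 (o ▸ le_O (normalIn_inf_left (l.trans h.lq)) ((h.s.le h.qs).le inf_le_right)))

theorem nc : ¬ R ≤ 𝐂 Q := fun c => h.r0 (h.rq ▸ comm_eq_bot.2 c)

theorem yq : ⁅Y, Q⁆ = Y := by
  refine le_antisymm (comm_le_left (nrm h.yn _)) (h.ymin _ ?_ (h.rq ▸ commutator_mono h.ry le_rfl))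
  refine normalIn_top.1 ⟨le_top, h.top ▸ sup_le (norm_comm_left _ _) ?_⟩
  exact norm_commutator (nrm h.yn _) h.lq

include h0

omit h in
theorem o0 {N X : Subgroup G} (n : N.Normal) (x : X ⊴ N) : 𝐎 {p} X = ⊥ :=
  eq_bot_iff.2 (h0 ▸ (O_le_O_of_normal x _).trans (O_le_O_of_normal (normalIn_top.2 n) _))

theorem norm {N : Subgroup G} (n : N.Normal) : Y ≤ N ∨ (N ≤ 𝐂 Q ∧ N ≤ 𝐂 Y) :=
  (h.dich' (nrm n _) (o0 h0 n (.refl _))).symm.imp (h.ymin N n) fun c =>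
    ⟨c, cent_symm (h.ymin _ inferInstance (h.rq ▸ (commutator_mono le_rfl (cent_symm c)).trans
      (comm_le_right (nrm inferInstance _))))⟩

theorem fstar : Y ≤ generalizedFittingSubgroup G :=
  (h.norm h0 inferInstance).elim id fun c => (cent_symm c.2).trans centralizer_fstar_le

omit h in
theorem fit : PiGrp {p}ᶜ (𝐅 (⊤ : Subgroup G)) := by
  have := (syl_O_F p (⊤ : Subgroup G)).idx
  rwa [h0, relIndex_bot_left] at this

theorem sub {X : Subgroup G} (x : X ⊴ Y) : X.IsSubnormal :=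
  haveI := h.yn
  subnormal_of_le_normalizer x.le (Subgroup.Normal.isSubnormal inferInstance) x.norm

theorem tgrp (c : PiGrp {p}ᶜ Y) : ∃ t : ℕ, t.Prime ∧ PiGrp {t} Y := by
  have := h.yn
  have sy : ∀ t : ℕ, ∃ T, Syl t T Y ∧ (T ≤ 𝐂 Q ∨ R ≤ T) := fun t => by
    obtain ⟨T, a, b⟩ := exists_syl_inv (nrm h.yn S) (h.s.coprime c) (Or.inl h.s.sol) t
    exact ⟨T, a, h.dich' b (O_eq_bot_of_compl (c.le a.le))⟩
  obtain ⟨t, ht, T, a, b⟩ : ∃ t : ℕ, t.Prime ∧ ∃ T, Syl t T Y ∧ R ≤ T := by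
    by_contra k
    push Not at k
    refine h.nc (h.ry.trans (le_of_forall_syl fun t ht _ => ?_))
    obtain ⟨T, a, b⟩ := sy t
    exact ⟨T, a, b.resolve_right (k t ht T a)⟩
  have yF : Y ≤ 𝐅 (⊤ : Subgroup G) := by
    refine h.yq.ge.trans (commutator_le.2 fun y hy x hx => ?_)
    have i : PiNat {t} ((𝐂₁ x).relIndex Y) := fun r hr d => by
      by_contra e
      obtain ⟨U, u, v⟩ := sy r
      refine v.elim (fun v => u.idx_of_le (K := 𝐂₁ x ⊓ Y) (le_inf (v.trans (cent_le_cent1 hx)) u.le)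
        r hr (by rwa [inf_relIndex_right]) rfl) fun v => ?_
      exact e ((a.pi.le b) r hr ((u.pi.le v).dvd_card h.r0))
    obtain ⟨k, hk⟩ := i.exists_pow (relIndex_ne_zero' _ _)
    have n : ⁅Y, zpowers x⁆ ⊴ Y := ⟨comm_le_left (nrm h.yn _), norm_comm_left _ _⟩
    exact le_fit (h.sub h0 n) (n.le.trans (h.fstar h0)) (kaz ht hk)
      (commutator_mem_commutator hy (mem_zpowers x))
  exact ⟨t, ht, (O_pi _ _).le (h.ymin _ (normalIn_top.1 (O_normal {t} ⊤))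
    (b.trans (le_O_of_le_F (a.le.trans yF) a.pi)))⟩

theorem cop (c : PiGrp {p}ᶜ Y) :
    ∃ t : ℕ, t.Prime ∧ t ≠ p ∧ PiGrp {t} Y ∧ R = Y ∧ ⁅Y, Y⁆ ≤ 𝐂 Y := by
  obtain ⟨t, ht, k⟩ := h.tgrp h0 c
  have y0 : Y ≠ ⊥ := ne_bot_of_le_ne_bot h.r0 h.ry
  have yt := normalIn_top.2 h.yn
  obtain ⟨V, -, v⟩ := exists_chief_below yt (bot_lt_iff_ne_bot.2 y0) (by simp)
  have vn := normalIn_top.1 v.normalV
  obtain ⟨vq, vy⟩ := (h.norm h0 vn).resolve_left v.lt.not_ge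
  have ab := v.minN.abelem_of_pi (k.qt V)
  have dv : ⁅Y, Y⁆ ≤ V := (abel_qt_iff (nrm vn _)).1 ab.abel
  refine ⟨t, ht, c t ht (k.dvd_card y0), k, ?_, dv.trans vy⟩
  obtain ⟨W, w, n⟩ := ab.exists_compl_inv (qt_norm V (nrm h.yn S)) (qt_mono V h.ry)
    (qt_norm V h.sr) (coprime_qt V (h.s.coprime (c.le h.ry)))
  have wy : qp V W ≤ Y := qp_le_of_le_qt v.normalVU w.right_le
  have wq : qp V W ≤ 𝐂 Q := by
    refine (h.dich' (norm_qp (nrm vn _) n) (O_eq_bot_of_compl (c.le wy))).resolve_right fun r => ?_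
    have := (qt_le_iff (nrm vn R)).2 r
    exact v.lt.not_ge (h.ymin V vn ((qt_eq_bot (nrm vn _)).1
      (eq_bot_iff.2 (w.inf ▸ le_inf le_rfl this))))
  have e : Y = (V ⊔ R) ⊔ qp V W := by
    rw [← qp_qt (nrm vn _), ← qp_sup, w.sup, qp_qt_of_normal v.normalVU]
  have qr : ⁅V ⊔ R, Q⁆ ≤ R := comm_sup_le (by rw [comm_eq_bot.2 vq]; exact bot_le) h.rq.le
    (norm_of_cent (vy.trans (cent_anti h.ry))) le_normalizer
  have l : Y ≤ V ⊔ R := by
    have n : Y ≤ 𝐍 (V ⊔ R) := norm_of_der_le (sup_le v.lt.le h.ry) (dv.trans le_sup_left)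
    refine h.yq.ge.trans (e.le |> fun a => (commutator_mono a le_rfl).trans ?_)
    exact comm_sup_le (qr.trans le_sup_right) (by rw [comm_eq_bot.2 wq]; exact bot_le)
      le_normalizer (wy.trans n)
  exact le_antisymm h.ry (h.yq.ge.trans ((commutator_mono l le_rfl).trans qr))

theorem lay (c : ¬ Y ≤ 𝐅 (⊤ : Subgroup G)) : layer Y = ⊤ := by
  have := h.yn
  rcases h.norm h0 (N := (layer Y).map Y.subtype) inferInstance with a | ⟨-, a⟩
  · exact eq_top_iff.2 fun x _ => by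
      obtain ⟨y, b, e⟩ := a x.2
      exact Subtype.ext e ▸ b
  · refine (c ?_).elim
    rw [F_top, eq_sup_of_subnormal_of_le_fstar (h.sub h0 (.refl _)) (h.fstar h0)]
    exact sup_le (sSup_le fun K ⟨k, b⟩ => (comp_not_le_centralizer k
      ((comp_le_map_layer_subtype k b).trans (a.trans (cent_anti b)))).elim) inf_le_left

theorem trans (c : ¬ Y ≤ 𝐅 (⊤ : Subgroup G)) {K₁ K₂ : Subgroup G} (k₁ : IsComponent K₁)
    (k₂ : IsComponent K₂) (l₁ : K₁ ≤ Y) (l₂ : K₂ ≤ Y) : ∃ s ∈ S, K₂ = cj s K₁ := by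
  have := h.yn
  have yl : Y ≤ layer G := by
    have := map_layer_subtype_le_of_subnormal (h.sub h0 (.refl _))
    rwa [h.lay h0 c, map_top_subtype] at this
  have yk : ∀ {K}, IsComponent K → Y ≤ 𝐍 K := fun k => yl.trans (layer_le_normalizer_comp k)
  have nq : ∀ {K}, IsComponent K → K ≤ Y → ¬ K ≤ 𝐂 Q := fun {K} k l e => by
    have n : (sSup {K | IsComponent K ∧ K ≤ Y ∧ K ≤ 𝐂 Q}).Normal := by
      refine normalIn_top.1 ⟨le_top, h.top ▸ sup_le (norm_sSup fun X x => yk x.1) ?_⟩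
      refine fun g hg => mem_norm_of_cj_le ?_
      rw [cj_def, (gc_map_comap _).l_sSup]
      refine iSup₂_le fun X x => le_sSup ⟨comp_map_conj x.1 g, cj_le_of_norm (nrm h.yn ⊤ trivial) x.2.1,
        cj_le_of_norm (norm_cent h.lq hg) x.2.2⟩
    rcases h.norm h0 n with a | ⟨-, a⟩
    · exact h.nc (h.ry.trans (a.trans (sSup_le fun X x => x.2.2)))
    · exact comp_not_le_centralizer k (le_trans (le_sSup (by exact ⟨k, l, e⟩)) (a.trans (cent_anti l)))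
  have orb : ∀ {K}, IsComponent K → K ≤ Y → sSup {X | ∃ s ∈ S, X = cj s K} ⊴ Y ∧
      R ≤ sSup {X | ∃ s ∈ S, X = cj s K} := fun {K} k l => by
    have n : sSup {X | ∃ s ∈ S, X = cj s K} ⊴ Y :=
      ⟨sSup_le fun X ⟨s, _, e⟩ => e ▸ cj_le_of_norm (nrm h.yn ⊤ trivial) l,
        norm_sSup fun X ⟨s, _, e⟩ => e ▸ yk (comp_map_conj k s)⟩
    refine ⟨n, (h.dich' (fun g hg => mem_norm_of_cj_le ?_) (o0 h0 h.yn n)).resolve_left fun e =>
      nq k l (le_trans (le_sSup (by exact ⟨1, one_mem _, (cj_one _).symm⟩)) e)⟩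
    rw [cj_def, (gc_map_comap _).l_sSup]
    exact iSup₂_le fun X ⟨s, hs, e⟩ => le_sSup ⟨g * s, mul_mem hg hs, by rw [e, ← cj_cj]; rfl⟩
  by_contra ne
  obtain ⟨a₁, b₁⟩ := orb k₁ l₁
  obtain ⟨a₂, b₂⟩ := orb k₂ l₂
  have cm := comm_eq_bot.1 (commutator_sSup_comp_eq_bot
    (S := {X | ∃ s ∈ S, X = cj s K₁}) (T := {X | ∃ s ∈ S, X = cj s K₂})
    (fun X ⟨s, _, e⟩ => e ▸ comp_map_conj k₁ s) (fun X ⟨s, _, e⟩ => e ▸ comp_map_conj k₂ s)
    fun X ⟨s, hs, e⟩ ⟨u, hu, f⟩ => ne ⟨u⁻¹ * s, mul_mem (inv_mem hu) hs, by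
      rw [← cj_cj, ← e, f, cj_inv_cj]⟩)
  have n := a₁.inf a₂
  exact c (h.ymin _ (normalIn_top.1 (F_normal _)) ((le_inf b₁ b₂).trans (le_fit (h.sub h0 n)
    (n.le.trans (h.fstar h0)) (Abel.sol (cent_mono cm inf_le_left inf_le_right)))))

end D

end CF.IsoP
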